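import Cfsg.Agent.H907.Odm.Forms
import Cfsg.Agent.H453.OddM.Defs

/-!
# TEAM ODDM, C8: `N_1` of `PΩ_{2m}^ε(q)`, `q` and `m` odd
-/

set_option autoImplicit false
set_option linter.unusedSectionVars false

namespace Cfsg.Agent.H907.Odm

open Cfsg Matrix Cfsg.Agent.H453.OddM
open Cfsg.Agent.ClassicalGeometry.Reflection

variable {ι : Type} [Fintype ι] [DecidableEq ι] {F : Type*} [Field F] {Q : (ι → F) → F}

/-- subgroups of `PΩ(Q)` fixing a nonsingular line are not `Cov` -/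
theorem RealNS.not_cov' (h : RealNS Q) {M : Subgroup (POmega F Q)} {v : ι → F} (hv : Q v ≠ 0)
    (hM : ∀ x : Omega F Q, QuotientGroup.mk' (Subgroup.center (Omega F Q)) x ∈ M →
      ∃ c : F, ((x : isometryGroup F Q) : Matrix.GeneralLinearGroup ι F).1 *ᵥ v = c • v) :
    ¬ Cov (POmega F Q) M := by
  intro hc
  obtain ⟨u, hu, ⟨g, hg, hgu⟩, hns⟩ := h
  have hr : IsReal (QuotientGroup.mk' (Subgroup.center (Omega F Q)) ⟨u, hu⟩) :=
    IsReal.map (⟨⟨g, hg⟩, Subtype.ext hgu⟩ : IsReal (⟨u, hu⟩ : Omega F Q)) _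
  obtain ⟨t, ht⟩ := hc.2 _ hr
  obtain ⟨y, rfl⟩ := QuotientGroup.mk'_surjective _ t
  rw [← map_mul, ← map_inv, ← map_mul] at ht
  obtain ⟨c, hcv⟩ := hM _ ht
  -- `u` has the eigenvector `y⁻¹ v`
  set w : ι → F := (((y : isometryGroup F Q)⁻¹ : isometryGroup F Q) : Matrix.GeneralLinearGroup ι F).1 *ᵥ v with hw
  have h1 : Q w = Q v := (mem_isometryGroup_iff Q _).1 ((y : isometryGroup F Q)⁻¹).2 v
  refine hns w (by rw [h1]; exact hv) c ?_
  have h2 : (((y * ⟨u, hu⟩ * y⁻¹ : Omega F Q) : isometryGroup F Q) : Matrix.GeneralLinearGroup ι F).1 *ᵥ v =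
      ((y : isometryGroup F Q) : Matrix.GeneralLinearGroup ι F).1 *ᵥ
        (((u : Matrix.GeneralLinearGroup ι F) : Matrix ι ι F) *ᵥ w) := by
    rw [hw, ← coe_mul_mulVec, ← coe_mul_mulVec]
    rfl
  rw [h2] at hcv
  have h3 := congrArg (fun z => (((y : isometryGroup F Q)⁻¹ : isometryGroup F Q) :
    Matrix.GeneralLinearGroup ι F).1 *ᵥ z) hcv

  rw [← coe_mul_mulVec, inv_mul_cancel, Matrix.mulVec_smul, Subgroup.coe_one, Units.val_one,
    Matrix.one_mulVec] at h3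
  exact h3

end Cfsg.Agent.H907.Odm
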