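import Cfsg.Agent.H907.Odm.Main

/-!
# A real unipotent element of `Ω_{2m}^ε(q)`, `q` and `m` odd, without nonsingular eigenvectors: the standard forms
-/

set_option autoImplicit false
set_option linter.unusedSectionVars false

namespace Cfsg.Agent.H907.Odm

open QuadraticMap Matrix Cfsg.Agent.LieClassical.OmegaReindex

/-- a real element of `Ω(Q)` without nonsingular eigenvectors -/
def RealNS {ι : Type} [Fintype ι] [DecidableEq ι] {F : Type*} [Field F] (Q : (ι → F) → F) : Prop :=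
  ∃ u ∈ Cfsg.Omega F Q, (∃ x ∈ Cfsg.Omega F Q, x * u * x⁻¹ = u⁻¹) ∧
    ∀ v, Q v ≠ 0 → ∀ c : F, ((u : Matrix.GeneralLinearGroup ι F) : Matrix ι ι F) *ᵥ v ≠ c • v

/-- a real element `u` of `Ω(Q)` with `(u - 1)^3 = 0` without nonsingular eigenvectors -/
def RealNU {ι : Type} [Fintype ι] [DecidableEq ι] {F : Type*} [Field F] (Q : (ι → F) → F) : Prop :=
  ∃ u ∈ Cfsg.Omega F Q, (∃ x ∈ Cfsg.Omega F Q, x * u * x⁻¹ = u⁻¹) ∧
    (∀ v, ((u : Matrix.GeneralLinearGroup ι F) : Matrix ι ι F) *ᵥ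
      (((u : Matrix.GeneralLinearGroup ι F) : Matrix ι ι F) *ᵥ
        (((u : Matrix.GeneralLinearGroup ι F) : Matrix ι ι F) *ᵥ v)) =
      (3 : F) • ((u : Matrix.GeneralLinearGroup ι F) : Matrix ι ι F) *ᵥ
        (((u : Matrix.GeneralLinearGroup ι F) : Matrix ι ι F) *ᵥ v) -
      (3 : F) • ((u : Matrix.GeneralLinearGroup ι F) : Matrix ι ι F) *ᵥ v + v) ∧
    ∀ v, Q v ≠ 0 → ∀ c : F, ((u : Matrix.GeneralLinearGroup ι F) : Matrix ι ι F) *ᵥ v ≠ c • v

theorem RealNU.realNS {ι : Type} [Fintype ι] [DecidableEq ι] {F : Type*} [Field F] {Q : (ι → F) → F}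
    (h : RealNU Q) : RealNS Q := by
  obtain ⟨u, hu, hx, _, h⟩ := h
  exact ⟨u, hu, hx, h⟩

variable {F : Type*} [Field F]

/-- coordinates for the plus type -/
def phiPlus (h2 : (2 : F) ≠ 0) (n : ℕ) : (Fin (n + 3) ⊕ Fin (n + 3) → F) ≃ₗ[F] X F n where
  toFun v := (![v (.inl 0), v (.inr 0), v (.inl 1), v (.inr 1), (v (.inl 2) + v (.inr 2)) / 2,
    (v (.inl 2) - v (.inr 2)) / 2], (fun i => v (.inl i.succ.succ.succ), fun i => v (.inr i.succ.succ.succ)))
  invFun p := Sum.elim (Fin.cons (p.1 0) (Fin.cons (p.1 2) (Fin.cons (p.1 4 + p.1 5) p.2.1)))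
    (Fin.cons (p.1 1) (Fin.cons (p.1 3) (Fin.cons (p.1 4 - p.1 5) p.2.2)))
  map_add' v w := by
    refine Prod.ext (funext fun i => ?_) (Prod.ext rfl rfl)
    fin_cases i <;> simp <;> ring
  map_smul' c v := by
    refine Prod.ext (funext fun i => ?_) (Prod.ext rfl rfl)
    fin_cases i <;> simp <;> ring
  left_inv v := by
    funext j
    rcases j with j | j
    · refine Fin.cases ?_ (fun j => Fin.cases ?_ (fun j => Fin.cases ?_ (fun j => ?_) j) j) j
      · rfl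
      · rfl
      · change (v (.inl 2) + v (.inr 2)) / 2 + (v (.inl 2) - v (.inr 2)) / 2 = v (.inl 2)
        field_simp
        ring
      · rfl
    · refine Fin.cases ?_ (fun j => Fin.cases ?_ (fun j => Fin.cases ?_ (fun j => ?_) j) j) j
      · rfl
      · rfl
      · change (v (.inl 2) + v (.inr 2)) / 2 - (v (.inl 2) - v (.inr 2)) / 2 = v (.inr 2)
        field_simp
        ring
      · rfl
  right_inv p := by
    refine Prod.ext (funext fun i => ?_) (Prod.ext rfl rfl)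
    fin_cases i
    · rfl
    · rfl
    · rfl
    · rfl
    · change ((p.1 4 + p.1 5) + (p.1 4 - p.1 5)) / 2 = p.1 4
      field_simp
      ring
    · change ((p.1 4 + p.1 5) - (p.1 4 - p.1 5)) / 2 = p.1 5
      field_simp
      ring

theorem q_phiPlus (h2 : (2 : F) ≠ 0) (n : ℕ) (v : Fin (n + 3) ⊕ Fin (n + 3) → F) :
    Cfsg.quadFormPlus (n + 3) F v = q6 (-1) (phiPlus h2 n v).1 + qR (phiPlus h2 n v).2 := by
  have h : q6 (-1) (phiPlus h2 n v).1 = v (.inl 0) * v (.inr 0) + v (.inl 1) * v (.inr 1) +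
      ((v (.inl 2) + v (.inr 2)) / 2) ^ 2 + (-1) * ((v (.inl 2) - v (.inr 2)) / 2) ^ 2 := rfl
  have h' : qR (phiPlus h2 n v).2 = ∑ i : Fin n, v (.inl i.succ.succ.succ) * v (.inr i.succ.succ.succ) := rfl
  rw [h, h']
  unfold Cfsg.quadFormPlus
  rw [Fin.sum_univ_succ, Fin.sum_univ_succ, Fin.sum_univ_succ]
  have e1 : (Fin.succ 0 : Fin (n + 2 + 1)) = 1 := rfl
  have e2 : (Fin.succ (Fin.succ 0) : Fin (n + 2 + 1)) = 2 := rfl
  rw [e1, e2]
  field_simp
  ring

/-- coordinates for the minus type -/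
def phiMinus (n : ℕ) (h : F) : ((Fin (n + 2) ⊕ Fin (n + 2)) ⊕ Fin 2 → F) ≃ₗ[F] X F n where
  toFun v := (![v (.inl (.inl 0)), v (.inl (.inr 0)), v (.inl (.inl 1)), v (.inl (.inr 1)),
    v (.inr 0) + h * v (.inr 1), v (.inr 1)],
    (fun i => v (.inl (.inl i.succ.succ)), fun i => v (.inl (.inr i.succ.succ))))
  invFun p := Sum.elim (Sum.elim (Fin.cons (p.1 0) (Fin.cons (p.1 2) p.2.1))
    (Fin.cons (p.1 1) (Fin.cons (p.1 3) p.2.2))) ![p.1 4 - h * p.1 5, p.1 5]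
  map_add' v w := by
    refine Prod.ext (funext fun i => ?_) (Prod.ext rfl rfl)
    fin_cases i <;> simp <;> ring
  map_smul' c v := by
    refine Prod.ext (funext fun i => ?_) (Prod.ext rfl rfl)
    fin_cases i <;> simp <;> ring
  left_inv v := by
    funext j
    rcases j with (j | j) | j
    · refine Fin.cases ?_ (fun j => Fin.cases ?_ (fun j => ?_) j) j <;> rfl
    · refine Fin.cases ?_ (fun j => Fin.cases ?_ (fun j => ?_) j) j <;> rfl
    · fin_cases j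
      · change v (.inr 0) + h * v (.inr 1) - h * v (.inr 1) = v (.inr 0)
        ring
      · rfl
  right_inv p := by
    refine Prod.ext (funext fun i => ?_) (Prod.ext rfl rfl)
    fin_cases i
    · rfl
    · rfl
    · rfl
    · rfl
    · change p.1 4 - h * p.1 5 + h * p.1 5 = p.1 4
      ring
    · rfl

theorem q_phiMinus (n : ℕ) (h b : F) (v : (Fin (n + 2) ⊕ Fin (n + 2)) ⊕ Fin 2 → F) :
    Cfsg.quadFormMinus (n + 2) F (2 * h) b v = q6 (b - h ^ 2) (phiMinus n h v).1 + qR (phiMinus n h v).2 := by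
  have h1 : q6 (b - h ^ 2) (phiMinus n h v).1 = v (.inl (.inl 0)) * v (.inl (.inr 0)) +
      v (.inl (.inl 1)) * v (.inl (.inr 1)) +
      (v (.inr 0) + h * v (.inr 1)) ^ 2 + (b - h ^ 2) * (v (.inr 1)) ^ 2 := rfl
  have h' : qR (phiMinus n h v).2 = ∑ i : Fin n, v (.inl (.inl i.succ.succ)) * v (.inl (.inr i.succ.succ)) := rfl
  rw [h1, h']
  unfold Cfsg.quadFormMinus
  rw [Fin.sum_univ_succ, Fin.sum_univ_succ]
  have e1 : (Fin.succ 0 : Fin (n + 1 + 1)) = 1 := rfl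
  rw [e1]
  ring

variable [Finite F]

theorem realNU_plus (h2 : (2 : F) ≠ 0) {m : ℕ} (hm : 3 ≤ m) (hodd : Odd m) :
    RealNU (Cfsg.quadFormPlus m F) := by
  obtain ⟨n, rfl⟩ : ∃ n, m = n + 3 := ⟨m - 3, by omega⟩
  have hn : Even n := by
    rw [Nat.even_iff]
    have := Nat.odd_iff.1 hodd
    omega
  have h := exists_real' h2 (quadPlus (n + 3) F) quadPlus_nondegenerate (by simp; omega) hn (D := -1)
    (neg_ne_zero.2 one_ne_zero) (phiPlus h2 n) (fun v => by rw [coe_quadPlus]; exact q_phiPlus h2 n v)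
  rwa [coe_quadPlus] at h

theorem realNS_plus (h2 : (2 : F) ≠ 0) {m : ℕ} (hm : 3 ≤ m) (hodd : Odd m) :
    RealNS (Cfsg.quadFormPlus m F) := (realNU_plus h2 hm hodd).realNS

theorem realNU_minus (h2 : (2 : F) ≠ 0) {m : ℕ} (hm : 3 ≤ m) (hodd : Odd m) {a b : F}
    (hab : ∀ z₁ z₂ : F, z₁ ^ 2 + a * z₁ * z₂ + b * z₂ ^ 2 = 0 → z₁ = 0 ∧ z₂ = 0) :
    RealNU (Cfsg.quadFormMinus (m - 1) F a b) := by
  obtain ⟨n, rfl⟩ : ∃ n, m = n + 3 := ⟨m - 3, by omega⟩
  have hn : Even n := by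
    rw [Nat.even_iff]
    have := Nat.odd_iff.1 hodd
    omega
  have e : n + 3 - 1 = n + 2 := rfl
  rw [e]
  have ha : a = 2 * (a / 2) := by field_simp
  have hD : b - (a / 2) ^ 2 ≠ 0 := by
    intro h0
    have := hab (-(a / 2)) 1 (by
      have h4 : a * (a / 2) = 2 * (a / 2) ^ 2 := by rw [show a * (a / 2) = 2 * (a / 2) * (a / 2) by rw [← ha]]; ring
      linear_combination h0 - h4)
    exact one_ne_zero this.2
  have h := exists_real' h2 (quadMinus (n + 2) F a b) (quadMinus_nondegenerate hab) (by simp) hn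
    (D := b - (a / 2) ^ 2) hD (phiMinus n (a / 2)) (fun v => by
      rw [coe_quadMinus]
      conv_lhs => rw [ha]
      exact q_phiMinus n (a / 2) b v)
  rwa [coe_quadMinus] at h

theorem realNS_minus (h2 : (2 : F) ≠ 0) {m : ℕ} (hm : 3 ≤ m) (hodd : Odd m) {a b : F}
    (hab : ∀ z₁ z₂ : F, z₁ ^ 2 + a * z₁ * z₂ + b * z₂ ^ 2 = 0 → z₁ = 0 ∧ z₂ = 0) :
    RealNS (Cfsg.quadFormMinus (m - 1) F a b) := (realNU_minus h2 hm hodd hab).realNS

end Cfsg.Agent.H907.Odm
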