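import Cfsg.Agent.H907.Odm.Model

/-!
# A real unipotent element of `Ω_{2m}^ε(q)`, `q` and `m` odd, without nonsingular eigenvectors: the main lemma
-/

set_option autoImplicit false
set_option linter.unusedSectionVars false

namespace Cfsg.Agent.H907.Odm

open QuadraticMap Matrix Cfsg.Agent.ClassicalGeometry.Reflection
open Cfsg.Agent.ClassicalGeometry.SpinorSign Cfsg.Agent.ClassicalGeometry.Universal
open Cfsg.Agent.ClassicalGeometry.OmegaIndex Cfsg.Agent.ClassicalGeometry.NegOneOmega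

variable {ι : Type} [Fintype ι] [DecidableEq ι] {F : Type*} [Field F] {n : ℕ}

/-- the model -/
abbrev X (F : Type*) (n : ℕ) : Type _ := (Fin 6 → F) × ((Fin n → F) × (Fin n → F))

section transport

variable (Φ : (ι → F) ≃ₗ[F] X F n)

/-- transport of a linear map of the model -/
def tr (f : X F n →ₗ[F] X F n) : (ι → F) →ₗ[F] (ι → F) :=
  (Φ.symm : X F n →ₗ[F] (ι → F)) ∘ₗ f ∘ₗ (Φ : (ι → F) →ₗ[F] X F n)

theorem tr_apply (f : X F n →ₗ[F] X F n) (v : ι → F) : Φ (tr Φ f v) = f (Φ v) := by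
  change Φ (Φ.symm (f (Φ v))) = _
  rw [LinearEquiv.apply_symm_apply]

/-- a transported equivalence -/
def trE (f f' : X F n →ₗ[F] X F n) (h1 : ∀ x, f (f' x) = x) (h2 : ∀ x, f' (f x) = x) :
    (ι → F) ≃ₗ[F] (ι → F) :=
  LinearEquiv.ofLinearMap (tr Φ f) (tr Φ f')
    (LinearMap.ext fun v => Φ.injective (by
      rw [LinearMap.comp_apply, tr_apply, tr_apply, h1]; rfl))
    (LinearMap.ext fun v => Φ.injective (by
      rw [LinearMap.comp_apply, tr_apply, tr_apply, h2]; rfl))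

theorem trE_apply (f f' : X F n →ₗ[F] X F n) (h1 : ∀ x, f (f' x) = x) (h2 : ∀ x, f' (f x) = x) (v : ι → F) :
    Φ (trE Φ f f' h1 h2 v) = f (Φ v) := tr_apply Φ f v

theorem det_tr (f : X F n →ₗ[F] X F n) : LinearMap.det (tr Φ f) = LinearMap.det f :=
  LinearMap.det_conj f Φ.symm

end transport

section main

variable [Finite F]

/-- the element is moreover unipotent with `(u - 1)^3 = 0` -/
theorem exists_real' (h2 : (2 : F) ≠ 0) (Q : QuadraticForm F (ι → F))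
    (hQ : (QuadraticMap.polarBilin Q).Nondegenerate) (hι : 2 ≤ Fintype.card ι) (hn : Even n) {D : F} (hD : D ≠ 0)
    (Φ : (ι → F) ≃ₗ[F] X F n) (hΦ : ∀ v, Q v = q6 D (Φ v).1 + qR (Φ v).2) :
    ∃ u ∈ Cfsg.Omega F (⇑Q), (∃ x ∈ Cfsg.Omega F (⇑Q), x * u * x⁻¹ = u⁻¹) ∧
      (∀ v, ((u : Matrix.GeneralLinearGroup ι F) : Matrix ι ι F) *ᵥ
        (((u : Matrix.GeneralLinearGroup ι F) : Matrix ι ι F) *ᵥ
          (((u : Matrix.GeneralLinearGroup ι F) : Matrix ι ι F) *ᵥ v)) =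
        (3 : F) • ((u : Matrix.GeneralLinearGroup ι F) : Matrix ι ι F) *ᵥ
          (((u : Matrix.GeneralLinearGroup ι F) : Matrix ι ι F) *ᵥ v) -
        (3 : F) • ((u : Matrix.GeneralLinearGroup ι F) : Matrix ι ι F) *ᵥ v + v) ∧
      ∀ v, Q v ≠ 0 → ∀ c : F, ((u : Matrix.GeneralLinearGroup ι F) : Matrix ι ι F) *ᵥ v ≠ c • v := by
  classical
  obtain ⟨σ, ε, hσ, hε, hεσ⟩ := exists_sign_involution F hn
  -- the element `w`
  let f : F → (X F n →ₗ[F] X F n) := fun t => LinearMap.prodMap (w6 D t) (wR σ ε t)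
  have hff : ∀ (s t : F) (x : X F n), f s (f t x) = f (s + t) x := fun s t x =>
    Prod.ext (w6_w6 D s t x.1) (wR_wR hσ hε hεσ s t x.2)
  have hf0 : ∀ x : X F n, f 0 x = x := fun x => Prod.ext (w6_zero D x.1) (wR_zero x.2)
  have hf1 : ∀ t (x : X F n), f t (f (-t) x) = x := fun t x => by rw [hff, add_neg_cancel, hf0]
  have hf2 : ∀ t (x : X F n), f (-t) (f t x) = x := fun t x => by rw [hff, neg_add_cancel, hf0]
  let W := trE Φ (f 1) (f (-1)) (hf1 1) (hf2 1)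
  have hWQ : ∀ v, Q (W v) = Q v := fun v => by
    rw [hΦ, hΦ, trE_apply]
    exact congrArg₂ (· + ·) (q6_w6 D 1 _) (qR_wR hσ hε hεσ 1 _)
  let w := mkIso (⇑Q) W hWQ
  have hw : ∀ v, Φ (((w : Matrix.GeneralLinearGroup ι F) : Matrix ι ι F) *ᵥ v) = f 1 (Φ v) := fun v => by
    rw [mkIso_mulVec, trE_apply]
  -- the element `g`
  let fg : X F n →ₗ[F] X F n := LinearMap.prodMap g6 (gR ε)
  have hg2 : ∀ x : X F n, fg (fg x) = x := fun x => Prod.ext (g6_g6 x.1) (gR_gR hε x.2)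
  let G := trE Φ fg fg hg2 hg2
  have hGQ : ∀ v, Q (G v) = Q v := fun v => by
    rw [hΦ, hΦ, trE_apply]
    exact congrArg₂ (· + ·) (q6_g6 D _) (qR_gR hε _)
  let g := mkIso (⇑Q) G hGQ
  have hg : ∀ v, Φ (((g : Matrix.GeneralLinearGroup ι F) : Matrix ι ι F) *ᵥ v) = fg (Φ v) := fun v => by
    rw [mkIso_mulVec, trE_apply]
  have hgd : ((g : Matrix.GeneralLinearGroup ι F) : Matrix ι ι F).det = 1 := by
    rw [det_mkIso]
    change LinearMap.det (tr Φ fg) = 1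
    rw [det_tr, LinearMap.det_prodMap, det_g6, det_gR' hε, one_mul]
  have hgg : g * g = 1 := by
    refine isometryGroup_ext _ _ _ fun v => Φ.injective ?_
    rw [coe_mul_mulVec, hg, hg, hg2]
    simp
  have hgw : g * w * g * w = 1 := by
    refine isometryGroup_ext _ _ _ fun v => Φ.injective ?_
    rw [coe_mul_mulVec, coe_mul_mulVec, coe_mul_mulVec, hg, hw, hg, hw]
    have h3 : ∀ x : X F n, fg (f 1 (fg x)) = f (-1) x := fun x => Prod.ext (g6_w6 D 1 x.1) (gR_wR hε hεσ 1 x.2)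
    rw [h3, hf2]
    simp
  have hginv : g * w * g⁻¹ = w⁻¹ := by
    rw [eq_inv_iff_mul_eq_one, ← eq_inv_of_mul_eq_one_left hgg]
    exact hgw
  -- reflections
  have hΦs : ∀ p : Fin 6 → F, Q (Φ.symm (p, 0)) = q6 D p := fun p => by
    rw [hΦ, LinearEquiv.apply_symm_apply]
    simp [qR]
  have hpol : ∀ (p : Fin 6 → F) (v : ι → F), polar (⇑Q) (Φ.symm (p, 0)) v = b6 D (Φ v).1 p := fun p v => by
    rw [polar, hΦ, hΦ, hΦ, map_add, LinearEquiv.apply_symm_apply]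
    simp [qR, q6, b6]
    ring
  let R : ∀ p : Fin 6 → F, q6 D p ≠ 0 → Cfsg.isometryGroup F (⇑Q) := fun p hp =>
    reflIso Q (Φ.symm (p, 0)) (by rw [hΦs]; exact hp)
  have hR : ∀ (p : Fin 6 → F) (hp : q6 D p ≠ 0) (v : ι → F),
      Φ (((R p hp : Matrix.GeneralLinearGroup ι F) : Matrix ι ι F) *ᵥ v) = (r6 D p (Φ v).1, (Φ v).2) := by
    intro p hp v
    rw [coe_reflIso, reflectionMatrix_mulVec, hpol, hΦs, map_sub, map_smul, LinearEquiv.apply_symm_apply]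
    refine Prod.ext ?_ ?_
    · change (Φ v).1 - ((q6 D p)⁻¹ * b6 D (Φ v).1 p) • p = (Φ v).1 - (b6 D (Φ v).1 p / q6 D p) • p
      rw [div_eq_inv_mul]
    · simp
  -- the centralising elements
  have key : ∀ a b : F, a ^ 2 + D * b ^ 2 ≠ 0 → ∃ h : Cfsg.isometryGroup F (⇑Q), h * w = w * h ∧
      ((h : Matrix.GeneralLinearGroup ι F) : Matrix ι ι F).det = -1 ∧
      spinorSign (⇑Q) (1 : F) h = if IsSquare (-(a ^ 2 + D * b ^ 2)) then -1 else 1 := by
    intro a b hN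
    have e1 : q6 D ![a, a, D * b, b, 0, 0] = a ^ 2 + D * b ^ 2 := by simp [q6]; ring
    have e2 : q6 D ![a, -a, D * b, -b, 0, 0] = -(a ^ 2 + D * b ^ 2) := by simp [q6]; ring
    have e3 : q6 D ![0, 0, 0, 0, a, b] = a ^ 2 + D * b ^ 2 := by simp [q6]
    have n1 : q6 D ![a, a, D * b, b, 0, 0] ≠ 0 := by rw [e1]; exact hN
    have n2 : q6 D ![a, -a, D * b, -b, 0, 0] ≠ 0 := by rw [e2]; exact neg_ne_zero.2 hN
    have n3 : q6 D ![0, 0, 0, 0, a, b] ≠ 0 := by rw [e3]; exact hN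
    have hact : ∀ v, Φ (((R _ n1 * R _ n2 * R _ n3 : Cfsg.isometryGroup F (⇑Q)) :
        Matrix.GeneralLinearGroup ι F).1 *ᵥ v) = (h6 D (a ^ 2 + D * b ^ 2)⁻¹ a b (Φ v).1, (Φ v).2) := by
      intro v
      rw [coe_mul_mulVec, coe_mul_mulVec, hR _ n1, hR _ n2, hR _ n3]
      refine Prod.ext ?_ rfl
      exact h6_eq D a b hN _
    refine ⟨R _ n1 * R _ n2 * R _ n3, ?_, ?_, ?_⟩
    · generalize R _ n1 * R _ n2 * R _ n3 = h at hact
      refine isometryGroup_ext _ _ _ fun v => Φ.injective ?_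
      rw [coe_mul_mulVec, coe_mul_mulVec, hact, hw, hw, hact]
      exact Prod.ext (h6_w6 D _ a b 1 _) rfl
    · rw [Subgroup.coe_mul, Units.val_mul, Matrix.det_mul, Subgroup.coe_mul, Units.val_mul, Matrix.det_mul,
        det_reflIso, det_reflIso, det_reflIso]
      ring
    · rw [map_mul, map_mul, spinorSign_reflIso h2 Q one_ne_zero, spinorSign_reflIso h2 Q one_ne_zero,
        spinorSign_reflIso h2 Q one_ne_zero]
      rw [hΦs, hΦs, hΦs, e1, e2, e3, one_mul, one_mul]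
      generalize a ^ 2 + D * b ^ 2 = N
      split_ifs <;> rfl
  obtain ⟨ν, hν⟩ := FiniteField.exists_nonsquare (ringChar_ne_two h2)
  have hν0 : ν ≠ 0 := by rintro rfl; exact hν IsSquare.zero
  obtain ⟨a, b, hab⟩ := exists_sq_add_sq (F := F) h2 one_ne_zero hD (-1)
  obtain ⟨a', b', hab'⟩ := exists_sq_add_sq (F := F) h2 one_ne_zero hD (-ν)
  rw [one_mul] at hab hab'
  obtain ⟨h1, hc1, hd1, hs1⟩ := key a b (by rw [hab]; exact neg_ne_zero.2 one_ne_zero)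
  obtain ⟨h3, hc3, hd3, hs3⟩ := key a' b' (by rw [hab']; exact neg_ne_zero.2 hν0)
  rw [hab, neg_neg, if_pos IsSquare.one] at hs1
  rw [hab', neg_neg, if_neg hν] at hs3
  obtain ⟨hu, hx⟩ := real_crit h2 Q hQ hι (w := w) (g := g) (h := h1 * h3) hginv hgd
    (by rw [Subgroup.coe_mul, Units.val_mul, Matrix.det_mul, hd1, hd3]; ring)
    (by rw [map_mul, hs1, hs3]; rfl)
    (by rw [mul_assoc, hc3, ← mul_assoc, hc1, mul_assoc])
  have hww : ∀ v, Φ ((((w * w : Cfsg.isometryGroup F (⇑Q)) : Matrix.GeneralLinearGroup ι F) :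
      Matrix ι ι F) *ᵥ v) = f (1 + 1) (Φ v) := fun v => by
    rw [coe_mul_mulVec, hw, hw, hff]
  refine ⟨w * w, hu, hx, fun v => Φ.injective ?_, fun v hv c h => hv ?_⟩
  · rw [hww, hww, hww, map_add, map_sub, map_smul, map_smul, hww, hww]
    simp only [hff]
    generalize Φ v = x
    refine Prod.ext ?_ ?_
    · change w6 D (1 + 1 + (1 + 1 + (1 + 1))) x.1 =
        (3 : F) • w6 D (1 + 1 + (1 + 1)) x.1 - (3 : F) • w6 D (1 + 1) x.1 + x.1
      funext i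
      fin_cases i <;> simp [w6_apply] <;> ring
    · change wR σ ε (1 + 1 + (1 + 1 + (1 + 1))) x.2 =
        (3 : F) • wR σ ε (1 + 1 + (1 + 1)) x.2 - (3 : F) • wR σ ε (1 + 1) x.2 + x.2
      refine Prod.ext (funext fun i => ?_) (funext fun i => ?_)
      · simp [wR_fst]; ring
      · simp [wR_snd]; ring
  rw [coe_mul_mulVec] at h
  have h4 := congrArg Φ h
  rw [hw, hw, hff, map_smul] at h4
  have ht : (1 : F) + 1 ≠ 0 := by rw [one_add_one_eq_two]; exact h2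
  have h5 : w6 D (1 + 1) (Φ v).1 = c • (Φ v).1 := congrArg Prod.fst h4
  have h6 : wR σ ε (1 + 1) (Φ v).2 = c • (Φ v).2 := congrArg Prod.snd h4
  rw [hΦ, w6_eigen hD ht h2 h5, wR_eigen hσ hε hεσ ht h2 h6, add_zero]

theorem exists_real (h2 : (2 : F) ≠ 0) (Q : QuadraticForm F (ι → F))
    (hQ : (QuadraticMap.polarBilin Q).Nondegenerate) (hι : 2 ≤ Fintype.card ι) (hn : Even n) {D : F} (hD : D ≠ 0)
    (Φ : (ι → F) ≃ₗ[F] X F n) (hΦ : ∀ v, Q v = q6 D (Φ v).1 + qR (Φ v).2) :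
    ∃ u ∈ Cfsg.Omega F (⇑Q), (∃ x ∈ Cfsg.Omega F (⇑Q), x * u * x⁻¹ = u⁻¹) ∧
      ∀ v, Q v ≠ 0 → ∀ c : F, ((u : Matrix.GeneralLinearGroup ι F) : Matrix ι ι F) *ᵥ v ≠ c • v := by
  obtain ⟨u, hu, hx, _, h⟩ := exists_real' h2 Q hQ hι hn hD Φ hΦ
  exact ⟨u, hu, hx, h⟩

end main

end Cfsg.Agent.H907.Odm
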