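import Cfsg.Agent.H907.Odm.Core

/-!
# The model `F⁶ ⊥ H^n` for `Ω_{2m}^ε(q)`, `m = n + 3`, `n` even
-/

set_option autoImplicit false
set_option linter.unusedSectionVars false

namespace Cfsg.Agent.H907.Odm

open Matrix

variable {F : Type*} [Field F]

/-! ### the six dimensional part -/

/-- `x₁ y₁ + x₂ y₂ + z₁² + D z₂²` -/
def q6 (D : F) (p : Fin 6 → F) : F := p 0 * p 1 + p 2 * p 3 + p 4 ^ 2 + D * p 5 ^ 2

/-- the polar form of `q6` -/
def b6 (D : F) (p r : Fin 6 → F) : F :=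
  p 0 * r 1 + p 1 * r 0 + (p 2 * r 3 + p 3 * r 2) + 2 * (p 4 * r 4) + 2 * D * (p 5 * r 5)

/-- `J₃ ⊥ J₃` -/
def w6 (D t : F) : (Fin 6 → F) →ₗ[F] (Fin 6 → F) where
  toFun p := ![p 0 - 2 * t * p 4 - t ^ 2 * p 1, p 1, p 2 - 2 * t * D * p 5 - t ^ 2 * D * p 3, p 3,
    p 4 + t * p 1, p 5 + t * p 3]
  map_add' p r := by
    funext i
    fin_cases i <;> simp <;> ring
  map_smul' c p := by
    funext i
    fin_cases i <;> simp <;> ring

theorem w6_apply (D t : F) (p : Fin 6 → F) : w6 D t p =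
    ![p 0 - 2 * t * p 4 - t ^ 2 * p 1, p 1, p 2 - 2 * t * D * p 5 - t ^ 2 * D * p 3, p 3,
    p 4 + t * p 1, p 5 + t * p 3] := rfl

theorem q6_w6 (D t : F) (p : Fin 6 → F) : q6 D (w6 D t p) = q6 D p := by
  simp only [q6, w6_apply]
  simp
  ring

theorem w6_w6 (D s t : F) (p : Fin 6 → F) : w6 D s (w6 D t p) = w6 D (s + t) p := by
  funext i
  fin_cases i <;> simp [w6_apply] <;> ring

theorem w6_zero (D : F) (p : Fin 6 → F) : w6 D 0 p = p := by
  funext i
  fin_cases i <;> simp [w6_apply]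

/-- the inverting element -/
def g6 : (Fin 6 → F) →ₗ[F] (Fin 6 → F) where
  toFun p := fun i => (![1, 1, 1, 1, -1, -1] : Fin 6 → F) i * p i
  map_add' p r := by
    funext i
    simp [mul_add]
  map_smul' c p := by
    funext i
    simp [mul_left_comm]

theorem g6_apply (p : Fin 6 → F) : g6 p = ![p 0, p 1, p 2, p 3, - p 4, - p 5] := by
  funext i
  fin_cases i <;> simp [g6]

theorem q6_g6 (D : F) (p : Fin 6 → F) : q6 D (g6 p) = q6 D p := by
  simp only [q6, g6_apply]
  simp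

theorem g6_g6 (p : Fin 6 → F) : g6 (g6 p) = p := by
  funext i
  fin_cases i <;> simp [g6_apply]

theorem g6_w6 (D t : F) (p : Fin 6 → F) : g6 (w6 D t (g6 p)) = w6 D (-t) p := by
  funext i
  fin_cases i <;> simp [g6_apply, w6_apply] <;> ring

theorem det_g6 : LinearMap.det (g6 (F := F)) = 1 := by
  have h : LinearMap.toMatrix' (g6 (F := F)) = Matrix.diagonal ![1, 1, 1, 1, -1, -1] := by
    rw [← LinearMap.toMatrix'_toLin' (Matrix.diagonal _)]
    congr 1
    refine LinearMap.ext fun p => ?_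
    funext i
    rw [Matrix.toLin'_apply, Matrix.mulVec_diagonal]
    rfl
  rw [← LinearMap.det_toMatrix', h, Matrix.det_diagonal]
  simp [Fin.prod_univ_succ]

/-- eigenvectors -/
theorem w6_eigen {D t : F} (hD : D ≠ 0) (ht : t ≠ 0) (h2 : (2 : F) ≠ 0) {c : F} {p : Fin 6 → F}
    (h : w6 D t p = c • p) : q6 D p = 0 := by
  have h0 := congrFun h 0
  have h1 := congrFun h 1
  have h3 := congrFun h 3
  have h4 := congrFun h 4
  have h5 := congrFun h 5
  have h20 := congrFun h 2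
  simp [w6_apply] at h0 h1 h20 h3 h4 h5
  by_cases hc : c = 1
  · subst hc
    have e1 : p 1 = 0 := by
      have : t * p 1 = 0 := by linear_combination h4
      exact (mul_eq_zero.1 this).resolve_left ht
    have e3 : p 3 = 0 := by
      have : t * p 3 = 0 := by linear_combination h5
      exact (mul_eq_zero.1 this).resolve_left ht
    have e4 : p 4 = 0 := by
      have : 2 * t * p 4 = 0 := by rw [e1] at h0; linear_combination -h0
      exact (mul_eq_zero.1 this).resolve_left (mul_ne_zero h2 ht)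
    have e5 : p 5 = 0 := by
      have : 2 * t * D * p 5 = 0 := by rw [e3] at h20; linear_combination -h20
      exact (mul_eq_zero.1 this).resolve_left (mul_ne_zero (mul_ne_zero h2 ht) hD)
    simp [q6, e1, e3, e4, e5]
  · have hc' : 1 - c ≠ 0 := fun h => hc (by linear_combination -h)
    have e1 : p 1 = 0 := by
      have : (1 - c) * p 1 = 0 := by linear_combination h1
      exact (mul_eq_zero.1 this).resolve_left hc'
    have e3 : p 3 = 0 := by
      have : (1 - c) * p 3 = 0 := by linear_combination h3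
      exact (mul_eq_zero.1 this).resolve_left hc'
    have e4 : p 4 = 0 := by
      have : (1 - c) * p 4 = 0 := by rw [e1] at h4; linear_combination h4
      exact (mul_eq_zero.1 this).resolve_left hc'
    have e5 : p 5 = 0 := by
      have : (1 - c) * p 5 = 0 := by rw [e3] at h5; linear_combination h5
      exact (mul_eq_zero.1 this).resolve_left hc'
    simp [q6, e1, e3, e4, e5]

/-- the centralising involution, `k = 1 / N` -/
def h6 (D k a b : F) (p : Fin 6 → F) : Fin 6 → F :=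
  ![p 0 - 2 * k * (p 0 * a + p 2 * b) * a, p 1 - 2 * k * (p 1 * a + D * p 3 * b) * a,
    p 2 - 2 * k * (p 0 * a + p 2 * b) * (D * b), p 3 - 2 * k * (p 1 * a + D * p 3 * b) * b,
    p 4 - 2 * k * (p 4 * a + D * p 5 * b) * a, p 5 - 2 * k * (p 4 * a + D * p 5 * b) * b]

theorem h6_w6 (D k a b t : F) (p : Fin 6 → F) : h6 D k a b (w6 D t p) = w6 D t (h6 D k a b p) := by
  funext i
  fin_cases i <;> simp [h6, w6_apply] <;> ring

/-- a reflection of the six dimensional part -/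
def r6 (D : F) (a : Fin 6 → F) (p : Fin 6 → F) : Fin 6 → F := p - (b6 D p a / q6 D a) • a

theorem r6_apply (D : F) (a p : Fin 6 → F) (i : Fin 6) : r6 D a p i = p i - b6 D p a / q6 D a * a i := rfl

theorem h6_eq (D a b : F) (hN : a ^ 2 + D * b ^ 2 ≠ 0) (p : Fin 6 → F) :
    r6 D ![a, a, D * b, b, 0, 0] (r6 D ![a, -a, D * b, -b, 0, 0] (r6 D ![0, 0, 0, 0, a, b] p)) =
      h6 D (a ^ 2 + D * b ^ 2)⁻¹ a b p := by
  have e1 : q6 D ![a, a, D * b, b, 0, 0] = a ^ 2 + D * b ^ 2 := by simp [q6]; ring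
  have e2 : q6 D ![a, -a, D * b, -b, 0, 0] = -(a ^ 2 + D * b ^ 2) := by simp [q6]; ring
  have e3 : q6 D ![0, 0, 0, 0, a, b] = a ^ 2 + D * b ^ 2 := by simp [q6]
  have hk : (a ^ 2 + D * b ^ 2)⁻¹ * (a ^ 2 + D * b ^ 2) = 1 := inv_mul_cancel₀ hN
  generalize hkk : (a ^ 2 + D * b ^ 2)⁻¹ = k at hk
  have hd : ∀ x : F, x / (a ^ 2 + D * b ^ 2) = k * x := fun x => by rw [div_eq_inv_mul, hkk]
  have hd' : ∀ x : F, x / -(a ^ 2 + D * b ^ 2) = -(k * x) := fun x => by rw [div_neg, hd]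
  have b1 : ∀ r : Fin 6 → F, b6 D r ![0, 0, 0, 0, a, b] = 2 * (r 4 * a) + 2 * D * (r 5 * b) := fun r => by
    simp [b6]
  have b2 : ∀ r : Fin 6 → F, b6 D r ![a, -a, D * b, -b, 0, 0] = -(r 0 * a) + r 1 * a + (-(r 2 * b) + r 3 * (D * b)) :=
    fun r => by simp [b6]
  have b3 : ∀ r : Fin 6 → F, b6 D r ![a, a, D * b, b, 0, 0] = r 0 * a + r 1 * a + (r 2 * b + r 3 * (D * b)) :=
    fun r => by simp [b6]
  funext i
  simp only [r6_apply, e1, e2, e3, hd, hd', b1, b2, b3]
  fin_cases i <;> simp [h6] <;> first | ring1 | (left; ring1)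

/-! ### the hyperbolic part -/

section rest

variable {n : ℕ} (σ : Equiv.Perm (Fin n)) (ε : Fin n → F)

def wR (t : F) : ((Fin n → F) × (Fin n → F)) →ₗ[F] ((Fin n → F) × (Fin n → F)) where
  toFun p := (fun i => p.1 i + t * ((1 + ε i) * p.1 (σ i)), fun i => p.2 i - t * ((1 - ε i) * p.2 (σ i)))
  map_add' p r := by
    refine Prod.ext (funext fun i => ?_) (funext fun i => ?_)
    · simp; ring
    · simp; ring
  map_smul' c p := by
    refine Prod.ext (funext fun i => ?_) (funext fun i => ?_)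
    · simp; ring
    · simp; ring

theorem wR_fst (t : F) (p : (Fin n → F) × (Fin n → F)) (i : Fin n) :
    (wR σ ε t p).1 i = p.1 i + t * ((1 + ε i) * p.1 (σ i)) := rfl

theorem wR_snd (t : F) (p : (Fin n → F) × (Fin n → F)) (i : Fin n) :
    (wR σ ε t p).2 i = p.2 i - t * ((1 - ε i) * p.2 (σ i)) := rfl

def gR : ((Fin n → F) × (Fin n → F)) →ₗ[F] ((Fin n → F) × (Fin n → F)) where
  toFun p := (fun i => ε i * p.1 i, fun i => ε i * p.2 i)
  map_add' p r := by
    refine Prod.ext (funext fun i => ?_) (funext fun i => ?_)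
    · simp; ring
    · simp; ring
  map_smul' c p := by
    refine Prod.ext (funext fun i => ?_) (funext fun i => ?_)
    · simp; ring
    · simp; ring

theorem gR_fst (p : (Fin n → F) × (Fin n → F)) (i : Fin n) : (gR ε p).1 i = ε i * p.1 i := rfl

theorem gR_snd (p : (Fin n → F) × (Fin n → F)) (i : Fin n) : (gR ε p).2 i = ε i * p.2 i := rfl

/-- the hyperbolic form -/
def qR (p : (Fin n → F) × (Fin n → F)) : F := ∑ i, p.1 i * p.2 i

variable {σ ε}

theorem wR_wR (hσ : ∀ i, σ (σ i) = i) (hε : ∀ i, ε i * ε i = 1) (hεσ : ∀ i, ε (σ i) = -ε i) (s t : F)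
    (p : (Fin n → F) × (Fin n → F)) : wR σ ε s (wR σ ε t p) = wR σ ε (s + t) p := by
  refine Prod.ext (funext fun i => ?_) (funext fun i => ?_)
  · rw [wR_fst, wR_fst, wR_fst, wR_fst, hσ, hεσ]
    linear_combination (-(s * t * p.1 i)) * hε i
  · rw [wR_snd, wR_snd, wR_snd, wR_snd, hσ, hεσ]
    linear_combination (-(s * t * p.2 i)) * hε i

theorem wR_zero (p : (Fin n → F) × (Fin n → F)) : wR σ ε 0 p = p := by
  refine Prod.ext (funext fun i => ?_) (funext fun i => ?_)
  · rw [wR_fst]; ring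
  · rw [wR_snd]; ring

theorem gR_gR (hε : ∀ i, ε i * ε i = 1) (p : (Fin n → F) × (Fin n → F)) : gR ε (gR ε p) = p := by
  refine Prod.ext (funext fun i => ?_) (funext fun i => ?_)
  · rw [gR_fst, gR_fst, ← mul_assoc, hε, one_mul]
  · rw [gR_snd, gR_snd, ← mul_assoc, hε, one_mul]

theorem gR_wR (hε : ∀ i, ε i * ε i = 1) (hεσ : ∀ i, ε (σ i) = -ε i) (t : F)
    (p : (Fin n → F) × (Fin n → F)) : gR ε (wR σ ε t (gR ε p)) = wR σ ε (-t) p := by
  refine Prod.ext (funext fun i => ?_) (funext fun i => ?_)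
  · rw [gR_fst, wR_fst, wR_fst, gR_fst, gR_fst, hεσ]
    linear_combination (p.1 i - t * p.1 (σ i) - t * ε i * p.1 (σ i)) * hε i
  · rw [gR_snd, wR_snd, wR_snd, gR_snd, gR_snd, hεσ]
    linear_combination (p.2 i + t * p.2 (σ i) - t * ε i * p.2 (σ i)) * hε i

theorem qR_gR (hε : ∀ i, ε i * ε i = 1) (p : (Fin n → F) × (Fin n → F)) : qR (gR ε p) = qR p := by
  refine Finset.sum_congr rfl fun i _ => ?_
  rw [gR_fst, gR_snd]
  linear_combination (p.1 i * p.2 i) * hε i

theorem qR_wR (hσ : ∀ i, σ (σ i) = i) (hε : ∀ i, ε i * ε i = 1) (hεσ : ∀ i, ε (σ i) = -ε i) (t : F)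
    (p : (Fin n → F) × (Fin n → F)) : qR (wR σ ε t p) = qR p := by
  have h1 : ∑ i, (1 - ε i) * (p.1 i * p.2 (σ i)) = ∑ i, (1 + ε i) * (p.1 (σ i) * p.2 i) := by
    rw [← Equiv.sum_comp σ]
    refine Finset.sum_congr rfl fun i _ => ?_
    rw [hσ, hεσ]
    ring
  have h2 : qR (wR σ ε t p) = qR p - t * ∑ i, (1 - ε i) * (p.1 i * p.2 (σ i)) +
      t * ∑ i, (1 + ε i) * (p.1 (σ i) * p.2 i) := by
    unfold qR
    rw [Finset.mul_sum, Finset.mul_sum, ← Finset.sum_sub_distrib, ← Finset.sum_add_distrib]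
    refine Finset.sum_congr rfl fun i _ => ?_
    rw [wR_fst, wR_snd]
    linear_combination (t ^ 2 * p.1 (σ i) * p.2 (σ i)) * hε i
  rw [h2, h1]
  ring

theorem wR_eigen (hσ : ∀ i, σ (σ i) = i) (hε : ∀ i, ε i * ε i = 1) (hεσ : ∀ i, ε (σ i) = -ε i) {t : F}
    (ht : t ≠ 0) (h2 : (2 : F) ≠ 0) {c : F} {p : (Fin n → F) × (Fin n → F)} (h : wR σ ε t p = c • p) :
    qR p = 0 := by
  have hx : ∀ i, p.1 i + t * ((1 + ε i) * p.1 (σ i)) = c * p.1 i := fun i =>
    congrFun (congrArg Prod.fst h) i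
  have hy : ∀ i, p.2 i - t * ((1 - ε i) * p.2 (σ i)) = c * p.2 i := fun i =>
    congrFun (congrArg Prod.snd h) i
  refine Finset.sum_eq_zero fun i _ => ?_
  by_cases hc : c = 1
  · subst hc
    have e1 : (1 - ε i) * p.1 i = 0 := by
      have h3 := hx (σ i)
      rw [hσ, hεσ] at h3
      have h4 : t * ((1 - ε i) * p.1 i) = 0 := by linear_combination h3
      exact (mul_eq_zero.1 h4).resolve_left ht
    have e2 : (1 + ε i) * p.2 i = 0 := by
      have h3 := hy (σ i)
      rw [hσ, hεσ] at h3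
      have h4 : t * ((1 + ε i) * p.2 i) = 0 := by linear_combination -h3
      exact (mul_eq_zero.1 h4).resolve_left ht
    have h4 : 2 * (p.1 i * p.2 i) = 0 := by linear_combination p.2 i * e1 + p.1 i * e2
    exact (mul_eq_zero.1 h4).resolve_left h2
  · have hc' : (c - 1) * (c - 1) ≠ 0 := fun h => hc (by
      rcases mul_eq_zero.1 h with h | h <;> linear_combination h)
    have e1 : p.1 i = 0 := by
      have h3 := hx (σ i)
      rw [hσ, hεσ] at h3
      have h4 : (c - 1) * (c - 1) * p.1 i = 0 := by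
        linear_combination (-(c - 1)) * hx i - t * (1 + ε i) * h3 - t ^ 2 * p.1 i * hε i
      exact (mul_eq_zero.1 h4).resolve_left hc'
    rw [e1, zero_mul]

theorem det_gR : LinearMap.det (gR ε) = (∏ i, ε i) * ∏ i, ε i := by
  let L : (Fin n → F) →ₗ[F] (Fin n → F) := LinearMap.pi fun i => (ε i • LinearMap.id).comp (LinearMap.proj i)
  have h1 : gR ε = LinearMap.prodMap L L := by
    refine LinearMap.ext fun p => ?_
    rfl
  have h2 : LinearMap.det L = ∏ i, ε i := by
    rw [LinearMap.det_pi]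
    refine Finset.prod_congr rfl fun i _ => ?_
    simp
  rw [h1, LinearMap.det_prodMap, h2]

theorem det_gR' (hε : ∀ i, ε i * ε i = 1) : LinearMap.det (gR ε) = 1 := by
  rw [det_gR, ← Finset.prod_mul_distrib]
  exact Finset.prod_eq_one fun i _ => hε i

end rest

end Cfsg.Agent.H907.Odm
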